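import Mathlib
set_option linter.all false

/-!
# Sylow subgroups in a unique maximal subgroup

Elementary facts about maximal subgroups containing a Sylow subgroup, used for S3858 and S3859.
-/

set_option autoImplicit false

namespace Cfsg.Agent.H466.SylowMax

open Subgroup

variable {G : Type*} [Group G]

/-- The subgroup `R ⊓ T` is not normal in `G` when `T` is a nonabelian simple normal subgroup and
`R` is an `r`-group meeting `T` nontrivially. -/
theorem not_normal_inf [Finite G] (T : Subgroup G) (hT : IsSimpleGroup T)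
    (hna : ¬ IsMulCommutative T) {r : ℕ} [Fact r.Prime] (R : Subgroup G) (hR : IsPGroup r R)
    (hR0 : R ⊓ T ≠ ⊥) : ¬ (R ⊓ T).Normal := by
  intro hn
  have h1 : ((R ⊓ T).subgroupOf T).Normal := hn.subgroupOf T
  rcases hT.eq_bot_or_eq_top_of_normal _ h1 with h | h
  · apply hR0
    rw [subgroupOf_eq_bot, disjoint_iff] at h
    rw [inf_assoc, inf_idem] at h
    exact h
  · rw [subgroupOf_eq_top] at h
    have hTR : T ≤ R := h.trans inf_le_left
    have hTp : IsPGroup r T := hR.to_le hTR
    have hnil : Group.IsNilpotent T := hTp.isNilpotent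
    have hsol : Group.IsSolvable T := inferInstance
    exact hna (isMulCommutative_iff.2 fun a b => IsSimpleGroup.comm_iff_isSolvable.2 hsol a b)

/-- A Sylow subgroup as above is not normal. -/
theorem not_normal [Finite G] (T : Subgroup G) [T.Normal] (hT : IsSimpleGroup T)
    (hna : ¬ IsMulCommutative T) {r : ℕ} [Fact r.Prime] (R : Subgroup G) (hR : IsPGroup r R)
    (hR0 : R ⊓ T ≠ ⊥) : ¬ R.Normal := by
  intro hn
  exact not_normal_inf T hT hna R hR hR0 inferInstance

/-- Two conjugates (by `g`) of a maximal subgroup containing the Sylow subgroup `R` and its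
normalizer are equal. -/
theorem conj_eq [Finite G] {r : ℕ} [Fact r.Prime] (R : Sylow r G) (M M' : Subgroup G)
    (hN : normalizer ((R : Subgroup G) : Set G) ≤ M) (hR' : (R : Subgroup G) ≤ M') (g : G)
    (hg : M' = M.map (MulAut.conj g).toMonoidHom) : M' = M := by
  have hRM : (R : Subgroup G) ≤ M := le_normalizer.trans hN
  -- `g⁻¹ R g ≤ M`
  have h1 : ((g⁻¹ • R : Sylow r G) : Subgroup G) ≤ M := by
    intro x hx
    rw [Sylow.coe_subgroup_smul, Subgroup.mem_pointwise_smul_iff_inv_smul_mem] at hx
    have h2 : g * x * g⁻¹ ∈ M' := by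
      apply hR'
      simpa using hx
    rw [hg, Subgroup.mem_map] at h2
    obtain ⟨y, hy, hyx⟩ := h2
    have : x = y := by
      have h3 : g * y * g⁻¹ = g * x * g⁻¹ := by simpa using hyx
      have h4 := mul_left_cancel (mul_right_cancel h3)
      exact h4.symm
    rw [this]
    exact hy
  obtain ⟨m, hm⟩ := MulAction.exists_smul_eq M ((R.subtype hRM)) ((g⁻¹ • R).subtype h1)
  -- `m • R = g⁻¹ • R`
  have hm' : ((m : G) • R : Sylow r G) = g⁻¹ • R := by
    have := congrArg (fun S : Sylow r M => (S : Subgroup M).map M.subtype) hm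
    simp only [Sylow.coe_subtype, Subgroup.subgroupOf_map_subtype, inf_eq_left.2 h1] at this
    apply Sylow.ext
    rw [← this]
    ext x
    simp only [Sylow.coe_subgroup_smul, Sylow.coe_subtype]
    constructor
    · intro hx
      rw [Subgroup.mem_pointwise_smul_iff_inv_smul_mem] at hx
      have hx' : (m : G)⁻¹ * x * (m : G) ∈ (R : Subgroup G) := by simpa using hx
      have hxM : x ∈ M := by
        have := M.mul_mem (M.mul_mem m.2 (hRM hx')) (M.inv_mem m.2)
        simpa [mul_assoc] using this
      refine ⟨⟨x, hxM⟩, ?_, rfl⟩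
      rw [SetLike.mem_coe, Subgroup.mem_pointwise_smul_iff_inv_smul_mem, Subgroup.mem_subgroupOf]
      simpa using hx'
    · rintro ⟨y, hy, rfl⟩
      rw [SetLike.mem_coe, Subgroup.mem_pointwise_smul_iff_inv_smul_mem, Subgroup.mem_subgroupOf] at hy
      rw [Subgroup.mem_pointwise_smul_iff_inv_smul_mem]
      simpa using hy
  have hgm : g * m ∈ normalizer ((R : Subgroup G) : Set G) := by
    have : (g * (m : G)) • R = R := by
      rw [mul_smul, hm', smul_inv_smul]
    exact Sylow.smul_eq_iff_mem_normalizer.1 this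
  have hgM : g ∈ M := by
    have h3 := M.mul_mem (hN hgm) (M.inv_mem m.2)
    simpa [mul_assoc] using h3
  rw [hg]
  ext x
  rw [Subgroup.mem_map]
  constructor
  · rintro ⟨y, hy, rfl⟩
    exact M.mul_mem (M.mul_mem hgM hy) (M.inv_mem hgM)
  · intro hx
    refine ⟨g⁻¹ * x * g, M.mul_mem (M.mul_mem (M.inv_mem hgM) hx) hgM, ?_⟩
    simp [mul_assoc]

end Cfsg.Agent.H466.SylowMax
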